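import Mathlib
import Cfsg.Agent.PrimeDegree.Jordan

/-!
Primitive permutation groups of degree `2p`: the elementary facts.
-/

set_option autoImplicit false
set_option linter.unusedSectionVars false

namespace CfsgLib.WielandtTwoP

open Equiv.Perm MulAction

variable {α : Type*} [Fintype α] [DecidableEq α] {p : ℕ} [Fact p.Prime]

theorem smul_def' (G : Subgroup (Equiv.Perm α)) (g : G) (a : α) : g • a = (g : Equiv.Perm α) a := rfl

theorem two_transitive_of_alternating (h4 : 4 ≤ Fintype.card α) (G : Subgroup (Equiv.Perm α))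
    (hA : alternatingGroup α ≤ G) : IsMultiplyPretransitive G α 2 := by
  have h2 : IsMultiplyPretransitive (alternatingGroup α) α (Nat.card α - 2) :=
    alternatingGroup.isMultiplyPretransitive α
  haveI := h2
  have h2' : IsMultiplyPretransitive (alternatingGroup α) α 2 :=
    isMultiplyPretransitive_of_le (n := Nat.card α - 2) (by rw [Nat.card_eq_fintype_card]; omega)
      (by omega)
  rw [is_two_pretransitive_iff] at h2' ⊢
  intro a b c d h h'
  obtain ⟨g, hg1, hg2⟩ := h2' h h'
  exact ⟨⟨g, hA g.2⟩, hg1, hg2⟩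

theorem two_transitive_of_cycle (hp3 : 3 ≤ p) (hα : Fintype.card α = 2 * p) (G : Subgroup (Equiv.Perm α))
    (hG : IsPreprimitive G α) {t : Equiv.Perm α} (htG : t ∈ G) (htc : t.IsCycle) (hts : t.support.card = p) :
    IsMultiplyPretransitive G α 2 := by
  refine two_transitive_of_alternating (by omega) G ?_
  by_cases h3 : p = 3
  · exact alternatingGroup_le_of_isPreprimitive_of_isThreeCycle_mem hG
      (card_support_eq_three_iff.mp (hts.trans h3)) htG
  · obtain ⟨s, hs, hs3⟩ := CfsgLib.PrimeDegree.exists_threeCycle_of_prime_cycle G hG h3 htG htc hts (by omega)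
    exact alternatingGroup_le_of_isPreprimitive_of_isThreeCycle_mem hG hs3 hs

/-- The cycle type of an element of order `p`. -/
theorem cycleType_of_order {t : Equiv.Perm α} (ht : orderOf t = p) (hα : Fintype.card α = 2 * p) :
    (∀ x, t x ≠ x) ∧ t.cycleType = Multiset.replicate 2 p ∨ t.IsCycle ∧ t.support.card = p := by
  have hp : p.Prime := Fact.out
  obtain ⟨n, hn⟩ := cycleType_prime_order (by rw [ht]; exact hp)
  rw [ht] at hn
  have hsum := sum_cycleType t
  rw [hn, Multiset.sum_replicate, smul_eq_mul] at hsum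
  have hle : t.support.card ≤ 2 * p := hα ▸ Finset.card_le_univ _
  rcases n with _ | _ | n
  · right
    refine ⟨?_, by simpa using hsum.symm⟩
    rw [← card_cycleType_eq_one, hn]
    simp
  · left
    refine ⟨fun x => ?_, hn⟩
    have : t.support = Finset.univ := Finset.eq_univ_of_card _ (by rw [hα, ← hsum])
    exact mem_support.1 (this ▸ Finset.mem_univ x)
  · exfalso
    rw [← hsum] at hle
    have := hp.pos
    nlinarith

/-- The data used in the proof: no element of order `p` fixes a point. -/
structure FpfData (G : Subgroup (Equiv.Perm α)) (p : ℕ) : Prop where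
  hdvd : p ∣ Nat.card G
  hfpf : ∀ g : G, orderOf g = p → ∀ x : α, g • x ≠ x
  hsq : ¬ p ^ 2 ∣ Nat.card G
  hcent : ∀ g : G, orderOf g = p → ∀ k : ℕ, k ∣ Nat.card (Subgroup.centralizer ({g} : Set G)) → ¬ p ∣ k → k ∣ 2

theorem exists_fixed_of_sq_dvd (hp3 : 3 ≤ p) (hα : Fintype.card α = 2 * p) (G : Subgroup (Equiv.Perm α))
    (h : p ^ 2 ∣ Nat.card G) : ∃ g : G, orderOf g = p ∧ ∃ x : α, g • x = x := by
  classical
  have hp : p.Prime := Fact.out
  obtain ⟨P, hP⟩ := Sylow.exists_subgroup_card_pow_prime p h
  by_contra hc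
  push Not at hc
  obtain ⟨a⟩ : Nonempty α := Fintype.card_pos_iff.1 (by omega)
  have hinj : Function.Injective (fun g : P => (g : G) • a) := by
    intro g h hgh
    by_contra hne
    have hne' : ((g⁻¹ * h : P) : G) ≠ 1 := fun e => hne (by
      have := Subtype.ext (a2 := (1 : P)) e
      rwa [inv_mul_eq_one] at this)
    have hfix : ((g⁻¹ * h : P) : G) • a = a := by
      rw [Subgroup.coe_mul, mul_smul, ← show (g : G) • a = (h : G) • a from hgh, Subgroup.coe_inv, inv_smul_smul]
    set z : G := ((g⁻¹ * h : P) : G) with hz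
    have hzo : orderOf z ∣ p ^ 2 := hP ▸ (Subgroup.orderOf_coe (g⁻¹ * h : P)) ▸ orderOf_dvd_natCard _
    obtain ⟨k, hk, hk'⟩ := (Nat.dvd_prime_pow hp).1 hzo
    have hk0 : k ≠ 0 := fun e => hne' (orderOf_eq_one_iff.1 (by rw [hk', e, pow_zero]))
    obtain ⟨j, rfl⟩ := Nat.exists_eq_succ_of_ne_zero hk0
    have hw : orderOf (z ^ p ^ j) = p := by
      rw [orderOf_pow' _ (pow_ne_zero _ hp.ne_zero), hk', Nat.gcd_eq_right (pow_dvd_pow p (Nat.le_succ j)),
        pow_succ, Nat.mul_div_cancel_left _ (pow_pos hp.pos j)]
    refine hc _ hw a ?_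
    have : ∀ n : ℕ, z ^ n • a = a := fun n => by
      induction n with
      | zero => simp
      | succ n ih => rw [pow_succ, mul_smul, hfix, ih]
    exact this _
  have := Nat.card_le_card_of_injective _ hinj
  rw [hP, Nat.card_eq_fintype_card, hα, sq] at this
  have := Nat.le_of_mul_le_mul_right this hp.pos
  omega

theorem fpfData_or_two_transitive (hp3 : 3 ≤ p) (hα : Fintype.card α = 2 * p) (G : Subgroup (Equiv.Perm α))
    (hG : IsPreprimitive G α) : FpfData G p ∨ IsMultiplyPretransitive G α 2 := by
  classical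
  have hp : p.Prime := Fact.out
  by_cases h : ∃ g : G, orderOf g = p ∧ ∃ x : α, g • x = x
  · obtain ⟨g, hg, x, hx⟩ := h
    right
    rcases cycleType_of_order (t := (g : Equiv.Perm α)) (by rw [Subgroup.orderOf_coe, hg]) hα with ⟨hf, -⟩ | ⟨hc, hs⟩
    · exact absurd hx (hf x)
    · exact two_transitive_of_cycle hp3 hα G hG g.2 hc hs
  left
  push Not at h
  have htr := hG.toIsPretransitive
  have hdvd : p ∣ Nat.card G := by
    obtain ⟨a⟩ : Nonempty α := Fintype.card_pos_iff.1 (by omega)
    have h1 := (MulAction.stabilizer G a).index_dvd_card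
    rw [MulAction.index_stabilizer_of_transitive, Nat.card_eq_fintype_card, hα] at h1
    exact (dvd_mul_left p 2).trans h1
  refine ⟨hdvd, h, fun hsq => ?_, ?_⟩
  · obtain ⟨g, hg, x, hx⟩ := exists_fixed_of_sq_dvd hp3 hα G hsq
    exact h g hg x hx
  intro g hg k hk hkp
  rcases cycleType_of_order (t := (g : Equiv.Perm α)) (by rw [Subgroup.orderOf_coe, hg]) hα with ⟨-, hct⟩ | ⟨hc, hs⟩
  · have h1 : Nat.card (Subgroup.centralizer ({g} : Set G)) ∣
        Nat.card (Subgroup.centralizer ({(g : Equiv.Perm α)} : Set (Equiv.Perm α))) := by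
      let f : Subgroup.centralizer ({g} : Set G) →*
          Subgroup.centralizer ({(g : Equiv.Perm α)} : Set (Equiv.Perm α)) :=
        { toFun := fun c => ⟨((c : G) : Equiv.Perm α), Subgroup.mem_centralizer_singleton_iff.2
            (congrArg Subtype.val (Subgroup.mem_centralizer_singleton_iff.1 c.2))⟩
          map_one' := rfl
          map_mul' := fun _ _ => rfl }
      exact Subgroup.card_dvd_of_injective f fun a b hab => Subtype.ext (Subtype.ext (congrArg
        (fun c : Subgroup.centralizer ({(g : Equiv.Perm α)} : Set (Equiv.Perm α)) => (c : Equiv.Perm α)) hab))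
    have h2 : Nat.card (Subgroup.centralizer ({(g : Equiv.Perm α)} : Set (Equiv.Perm α))) = 2 * p ^ 2 := by
      rw [nat_card_centralizer, hct, Multiset.sum_replicate, Multiset.prod_replicate, smul_eq_mul, hα,
        Nat.sub_self, Nat.factorial_zero, one_mul,
        show (Multiset.replicate 2 p).toFinset = {p} by simp, Finset.prod_singleton,
        Multiset.count_replicate_self, Nat.factorial_two, mul_comm]
    have h3 : k ∣ 2 * p ^ 2 := hk.trans (h2 ▸ h1)
    exact (Nat.Coprime.pow_right 2 (hp.coprime_iff_not_dvd.2 hkp).symm).dvd_of_dvd_mul_right h3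
  · obtain ⟨x, hx⟩ : ∃ x : α, (g : Equiv.Perm α) x = x := by
      by_contra hcon
      push Not at hcon
      have : (g : Equiv.Perm α).support = Finset.univ := Finset.eq_univ_iff_forall.2 fun x => mem_support.2 (hcon x)
      rw [this, Finset.card_univ] at hs
      omega
    exact absurd hx (h g hg x)

/-- A primitive group of degree four is doubly transitive. -/
theorem two_transitive_degree_four (hα : Fintype.card α = 4) (G : Subgroup (Equiv.Perm α))
    (hG : IsPreprimitive G α) : IsMultiplyPretransitive G α 2 := by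
  classical
  haveI := Fact.mk Nat.prime_two
  have htr := hG.toIsPretransitive
  obtain ⟨a⟩ : Nonempty α := Fintype.card_pos_iff.1 (by omega)
  haveI : Nontrivial α := Fintype.one_lt_card_iff_nontrivial.1 (by omega)
  have hidx : (MulAction.stabilizer G a).index = 4 := by
    rw [MulAction.index_stabilizer_of_transitive, Nat.card_eq_fintype_card, hα]
  haveI := Fact.mk Nat.prime_three
  by_cases h3 : 3 ∣ Nat.card G
  · obtain ⟨g, hg⟩ := exists_prime_orderOf_dvd_card' (G := G) 3 h3
    refine two_transitive_of_alternating (by omega) G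
      (alternatingGroup_le_of_isPreprimitive_of_isThreeCycle_mem hG (g := (g : Equiv.Perm α)) ?_ g.2)
    haveI := Fact.mk Nat.prime_three
    obtain ⟨n, hn⟩ := cycleType_prime_order (σ := (g : Equiv.Perm α)) (by rw [Subgroup.orderOf_coe, hg]; exact Nat.prime_three)
    rw [Subgroup.orderOf_coe, hg] at hn
    have hsum := sum_cycleType (g : Equiv.Perm α)
    rw [hn, Multiset.sum_replicate, smul_eq_mul] at hsum
    have hle : (g : Equiv.Perm α).support.card ≤ 4 := hα ▸ Finset.card_le_univ _
    have : n = 0 := by omega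
    subst this
    rw [IsThreeCycle, hn]
    rfl
  · exfalso
    have hG2 : IsPGroup 2 G := by
      have hdvd : Nat.card G ∣ 2 ^ 3 := by
        have h24 : Nat.card G ∣ 24 := by
          have := Subgroup.card_subgroup_dvd_card G
          rw [Nat.card_perm, Nat.card_eq_fintype_card (α := α), hα] at this
          simpa [Nat.factorial] using this
        exact ((Nat.prime_three.coprime_iff_not_dvd.2 h3).symm).dvd_of_dvd_mul_right (n := 3) (m := 2 ^ 3)
          (by rw [show (2:ℕ) ^ 3 * 3 = 24 by norm_num]; exact h24)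
      obtain ⟨k, -, hk⟩ := (Nat.dvd_prime_pow Nat.prime_two).1 hdvd
      exact IsPGroup.of_card hk
    have hmax := hG.isCoatom_stabilizer_of_isPreprimitive (a := a)
    haveI := hG2.isNilpotent
    have hn : (MulAction.stabilizer G a).Normal := Subgroup.NormalizerCondition.normal_of_coatom _
      Group.normalizerCondition_of_isNilpotent hmax
    have hbot : MulAction.stabilizer G a = ⊥ := by
      refine eq_bot_iff.2 fun g hg => ?_
      rw [Subgroup.mem_bot]
      refine Subtype.ext (Equiv.ext fun b => ?_)
      obtain ⟨k, rfl⟩ := exists_smul_eq G a b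
      have := hn.conj_mem g hg k⁻¹
      rw [inv_inv] at this
      have h2 : (k⁻¹ * g * k) • a = a := this
      rw [mul_smul, mul_smul, inv_smul_eq_iff] at h2
      exact h2
    rw [hbot, Subgroup.index_bot] at hidx
    rw [hbot] at hmax
    obtain ⟨g, hg⟩ := exists_prime_orderOf_dvd_card' (G := G) 2 (by rw [hidx]; norm_num)
    have htop : Subgroup.zpowers g = ⊤ :=
      hmax.2 _ (bot_lt_iff_ne_bot.2 fun e => by
        have := Nat.card_zpowers g
        rw [e, Subgroup.card_bot, hg] at this
        omega)
    have := Nat.card_zpowers g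
    rw [htop, Subgroup.card_top, hidx, hg] at this
    omega

end CfsgLib.WielandtTwoP
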